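import Cfsg.Agent.H920.CsAbel
import Cfsg.Agent.H878.RData

/-!
# Coordinates give a Heisenberg frame in the sense of helper878 (helper920)

`exists_frame` : for `R` absolutely irreducible of symplectic type (`IsType r k R`), there are `C : Coord R r k` and
`X : Vec r k → GL ι F` with `H878.Frame C.χ (sympBilin k (ZMod r)) X` and `H878.RData r R (Nat.card (center R)) X`.
-/

set_option autoImplicit false

namespace Cfsg.Agent.H920

open Cfsg Cfsg.Geo Matrix Cfsg.Agent.ClassicalGeometry.SympBasic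

variable {ι : Type} [Fintype ι] [DecidableEq ι] {F : Type*} [Field F] {R : Subgroup (GL ι F)} {r k : ℕ}

theorem finrank_vec [Fact r.Prime] : Module.finrank (ZMod r) (Vec r k) = 2 * k := by
  rw [Module.finrank_pi, Fintype.card_sum, Fintype.card_fin, two_mul]

/-- A frame for given representatives. -/
theorem Coord.frame [Nonempty ι] [Fact r.Prime] (C : Coord R r k) (habs : ActsAbsolutelyIrreducibly (matrixSet R))
    {s : Vec r k → R} (hs : ∀ v, C.φ (s v) = v) :
    H878.Frame C.χ (sympBilin k (ZMod r)) (fun v => (s v : GL ι F)) := by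
  refine ⟨sympBilin_isAlt, ?_, ?_, ?_, ?_, ?_, ?_⟩
  · intro v hv
    apply eq_zero_of_forall_sympForm_left (m := k) (F := ZMod r)
    intro w
    rw [sympForm_swap, ← sympBilin_apply, hv, neg_zero]
  · intro a ha
    exact C.inj (by rw [ha, AddChar.map_zero_eq_one])
  · intro v w
    obtain ⟨c, -, hc⟩ := C.exists_smul (x := s (v + w)) (y := s v * s w) (by rw [hs, C.map_mul, hs, hs])
    exact ⟨c, hc⟩
  · intro v w
    show _ = C.χ (sympBilin k (ZMod r) v w) • _
    have := C.comm (s v) (s w)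
    rw [hs, hs] at this
    exact this
  · intro M hM
    apply habs.2
    rintro _ ⟨x, hx, rfl⟩
    obtain ⟨c, -, hc⟩ := C.exists_smul (x := s (C.φ ⟨x, hx⟩)) (y := ⟨x, hx⟩) (hs _)
    have hc' : (x : Matrix ι ι F) = c • ((s (C.φ ⟨x, hx⟩) : GL ι F) : Matrix ι ι F) := hc
    show M * (x : Matrix ι ι F) = (x : Matrix ι ι F) * M
    rw [hc', Matrix.mul_smul, Matrix.smul_mul, hM]
  · intro W hW
    apply habs.1 W
    rintro _ ⟨x, hx, rfl⟩
    obtain ⟨c, -, hc⟩ := C.exists_smul (x := s (C.φ ⟨x, hx⟩)) (y := ⟨x, hx⟩) (hs _)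
    have hc' : (x : Matrix ι ι F) = c • ((s (C.φ ⟨x, hx⟩) : GL ι F) : Matrix ι ι F) := hc
    rintro _ ⟨w, hw, rfl⟩
    show Matrix.toLin' (x : Matrix ι ι F) w ∈ W
    rw [hc', map_smul, LinearMap.smul_apply]
    exact W.smul_mem _ (hW _ ⟨_, rfl⟩ ⟨w, hw, rfl⟩)

/-- The wrapper. -/
theorem exists_frame [Finite F] [Nonempty ι] (hR : IsSymplecticTypeGroup r R)
    (habs : ActsAbsolutelyIrreducibly (matrixSet R)) (ht : IsType r k R) (hk : 1 ≤ k) :
    ∃ (C : Coord R r k) (X : Vec r k → GL ι F), (∀ v, ∃ x : R, C.φ x = v ∧ (x : GL ι F) = X v) ∧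
      (haveI : Fact r.Prime := ⟨hR.prime⟩; H878.Frame C.χ (sympBilin k (ZMod r)) X) ∧
      H878.RData r R (Nat.card (Subgroup.center R)) X := by
  have hfin : Finite (GL ι F) := inferInstance
  have hp : Fact r.Prime := ⟨hR.prime⟩
  obtain ⟨C⟩ := exists_coord habs (comm_of_type hR habs ht) hR.prime hk (pow_of_type hR habs ht)
    (card_of_type hR habs ht)
  have hfull : ∀ v, ∃ x : R, C.φ x = v ∧ x ^ r = 1 := by
    intro v
    obtain ⟨x, rfl⟩ := C.surj v
    obtain ⟨z, hz, h⟩ := full_of_type hR habs ht x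
    refine ⟨z * x, ?_, h⟩
    rw [C.map_mul, (C.ker_iff z).2 (mem_scalars_of_mem_center habs hz), zero_add]
  have hnorm : ∃ s : Vec r k → R, (∀ v, C.φ (s v) = v) ∧ H878.Normed r (fun v => (s v : GL ι F)) := by
    rcases ht with ⟨hodd, -, -⟩ | ⟨rfl, hZ, -⟩
    · choose s hs hs' using hfull
      refine ⟨s, hs, Or.inl ⟨hodd, fun v => ?_⟩⟩
      rw [← Units.val_pow_eq_pow_val, ← Subgroup.coe_pow, hs', Subgroup.coe_one, Units.val_one]
    · obtain ⟨z, i, hi, hz, -, hzc⟩ := exists_i_of_type hR habs hZ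
      choose s hs hs' using hfull
      refine ⟨fun v => z * s v, fun v => ?_, Or.inr ⟨rfl, fun v => ?_⟩⟩
      · rw [C.map_mul, (C.ker_iff z).2 (mem_scalars_of_mem_center habs hzc), zero_add, hs]
      · have h1 : (((s v : R) : GL ι F) : Matrix ι ι F) * (((s v : R) : GL ι F) : Matrix ι ι F) = 1 := by
          have h2 := hs' v
          rw [pow_two] at h2
          rw [← Units.val_mul, ← Subgroup.coe_mul, h2, Subgroup.coe_one, Units.val_one]
        simp only [Subgroup.coe_mul, Units.val_mul, hz]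
        rw [Matrix.smul_mul, Matrix.one_mul, smul_mul_smul_comm, h1, ← pow_two, hi]
        simp
  obtain ⟨s, hs, hn⟩ := hnorm
  refine ⟨C, fun v => (s v : GL ι F), fun v => ⟨s v, hs v, rfl⟩, C.frame habs hs, hn, ?_, ?_⟩
  · rcases ht with ⟨hodd, hZ, -⟩ | ⟨h2, hZ, -⟩
    · exact Or.inl ⟨hodd, hZ⟩
    · exact Or.inr ⟨h2, hZ⟩
  · intro g
    constructor
    · intro hg
      obtain ⟨c, hc0, hc⟩ := C.exists_smul (x := s (C.φ ⟨g, hg⟩)) (y := ⟨g, hg⟩) (hs _)
      refine ⟨_, c, ?_, hc⟩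
      have h1 : ((s (C.φ ⟨g, hg⟩))⁻¹ * ⟨g, hg⟩ : R) ∈ Subgroup.center R := by
        apply mem_center_of_mem_scalars habs
        rw [← C.φ_eq_iff, hs]
      have h2 : ((((s (C.φ ⟨g, hg⟩))⁻¹ * ⟨g, hg⟩ : R) : GL ι F) : Matrix ι ι F) = c • (1 : Matrix ι ι F) := by
        have hc' : (g : Matrix ι ι F) = c • ((s (C.φ ⟨g, hg⟩) : GL ι F) : Matrix ι ι F) := hc
        rw [Subgroup.coe_mul, Subgroup.coe_inv, Units.val_mul]
        show (((s (C.φ ⟨g, hg⟩) : GL ι F)⁻¹ : GL ι F) : Matrix ι ι F) * (g : Matrix ι ι F) = _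
        rw [hc', Matrix.mul_smul, Units.inv_mul]
      exact pow_card_center habs ((s (C.φ ⟨g, hg⟩))⁻¹ * ⟨g, hg⟩ : R).2 h2
    · rintro ⟨v, c, hc, hg⟩
      have hpos : 0 < Nat.card (Subgroup.center R) := Nat.card_pos
      have hc0 : c ≠ 0 := by
        rintro rfl
        rw [zero_pow hpos.ne'] at hc
        exact zero_ne_one hc
      have h1 : (s v : GL ι F)⁻¹ * g ∈ scalars ι F := by
        apply mem_scalars_of_val (c := c)
        rw [Units.val_mul, hg, Matrix.mul_smul, Units.inv_mul]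
      have h2 : ((s v : GL ι F)⁻¹ * g) ^ Nat.card (Subgroup.center R) = 1 := by
        apply Units.ext
        have h3 : (((s v : GL ι F)⁻¹ * g : GL ι F) : Matrix ι ι F) = c • (1 : Matrix ι ι F) := by
          rw [Units.val_mul, hg, Matrix.mul_smul, Units.inv_mul]
        rw [pow_eq_one_of_smul h3, hc, one_smul, Units.val_one]
      have h4 := mem_of_pow_card_center habs h1 h2
      have h5 := R.mul_mem (s v).2 h4
      rwa [mul_inv_cancel_left] at h5

end Cfsg.Agent.H920
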